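import Cfsg.Agent.H889.Enum.LS
import Cfsg.Agent.H542.EPX.Cells
import Cfsg.Agent.OrdDiv.Table
import Cfsg.Agent.S2654
import Cfsg.Agent.S2655
import Cfsg.Agent.S2656
import Cfsg.Agent.S2657
import Cfsg.Agent.S2659

/-!
# S5745, layer ENUM: the frame of the cross cells

* `emb e` : the injection `T →* G` for `e : N ≃* (Fin 1 → T)`;
* `cross_base` : `Cross p G` from the three kinds of socles (alternating, Tits, names in the region);
* `alt_le_e8 …` : the alternating subgroups of the models.
-/

set_option autoImplicit false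

namespace Cfsg.Agent.H889.Enum

open Cfsg Cfsg.Agent.OrdDiv Cfsg.Agent.H902 Cfsg.Agent.H902.Names Cfsg.Agent.H290.ElReg
open Cfsg.Agent.H209.EPX Cfsg.Agent.H542.EPX

/-- the injection of the socle -/
def emb {G : Type} [Group G] {N : Subgroup G} {T : Type} [Group T] (e : N ≃* (Fin 1 → T)) : T →* G :=
  N.subtype.comp ((e.trans (MulEquiv.funUnique (Fin 1) T)).symm.toMonoidHom)

theorem emb_injective {G : Type} [Group G] {N : Subgroup G} {T : Type} [Group T] (e : N ≃* (Fin 1 → T)) :
    Function.Injective (emb e) :=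
  N.subtype_injective.comp (e.trans (MulEquiv.funUnique (Fin 1) T)).symm.injective

theorem finite_of {G : Type} [Group G] [Finite G] {N : Subgroup G} {T : Type} [Group T] (e : N ≃* (Fin 1 → T)) :
    Finite T := Finite.of_injective _ (emb_injective e)

/-- the known simple groups at `Type` -/
def AllK : Prop := ∀ (X : Type) [Group X] [Finite X], IsSimpleGroup X → IsKnownSimple' X

/-- **The frame**: `Cross p G` from the three kinds of socles. -/
theorem cross_base (hK : AllK) {D p : ℕ} [Fact p.Prime] (hD : D ≤ 248) {F : Type} [Field F] [CharP F p] {G : Type}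
    [Group G] [Finite G] (hG : Fth D F G)
    (halt : ∀ (H N : Subgroup G) (T : Type) [Group T] [Finite T] (e : N ≃* (Fin 1 → T)), EPS H N e → ∀ n, 5 ≤ n →
      Nonempty (T ≃* alternatingGroup (Fin n)) → ¬ IsLieTypeChar p T → False)
    (htits : ∀ (H N : Subgroup G) (T : Type) [Group T] [Finite T] (e : N ≃* (Fin 1 → T)), EPS H N e →
      Lie.IsoTits T → False)
    (hreg : ∀ (H N : Subgroup G) (T : Type) [Group T] [Finite T] (e : N ≃* (Fin 1 → T)), EPS H N e →
      InReg D p T → False) : Cross p G := by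
  intro H N T _ e h hsp hL
  have hT : Finite T := finite_of e
  have hs : IsSimpleGroup T := h.simple
  have hna : ¬ ∀ a b : T, a * b = b * a := by
    obtain ⟨a, b, hab⟩ := h.nab
    exact fun hc => hab (hc a b)
  rcases cross_lie table hD hna (hK T hs) (fth_of hG (emb_injective e)) hL with h1 | h1 | h1 | h1
  · obtain ⟨n, hn, he⟩ := h1
    exact halt H N T e h n hn he hL
  · exact htits H N T e h h1
  · exact hsp h1
  · exact hreg H N T e h h1

/-! ### alternating subgroups of the models -/

theorem quot_bot {G T : Type} [Group G] [Group T] {n : ℕ} {f : T →* G} (hf : Function.Injective f)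
    (h : Nonempty (T ≃* alternatingGroup (Fin n))) :
    Nonempty (↥f.range ⧸ (⊥ : Subgroup ↥f.range) ≃* ↥(alternatingGroup (Fin n))) := by
  obtain ⟨e⟩ := h
  exact ⟨(QuotientGroup.quotientBot).trans ((MonoidHom.ofInjective hf).symm.trans e)⟩

section models

variable {F : Type} [Field F] [Fintype F] {p : ℕ} [Fact p.Prime] [CharP F p] {T : Type} [Group T] {n : ℕ}

theorem alt_le_e8 {f : T →* ↥(Lie.chevE8.group F)} (hf : Function.Injective f)
    (h : Nonempty (T ≃* alternatingGroup (Fin n))) : n ≤ 17 + (if p = 3 then 1 else 0) :=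
  Cfsg.Agent.S2654.result p n f.range ⊥ (quot_bot hf h)

theorem alt_le_e7 {f : T →* ↥(Lie.chevE7.group F)} (hf : Function.Injective f)
    (h : Nonempty (T ≃* alternatingGroup (Fin n))) : n ≤ 13 + (if p = 7 then 1 else 0) :=
  Cfsg.Agent.S2655.result p n f.range ⊥ (quot_bot hf h)

theorem alt_le_e6 {f : T →* ↥(Lie.chevE6.group F)} (hf : Function.Injective f)
    (h : Nonempty (T ≃* alternatingGroup (Fin n))) : n ≤ 11 + (if p = 2 ∨ p = 3 ∨ p = 5 then 1 else 0) :=
  Cfsg.Agent.S2656.result p n f.range ⊥ (quot_bot hf h)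

theorem alt_le_f4 {f : T →* ↥(Lie.chevF4.group F)} (hf : Function.Injective f)
    (h : Nonempty (T ≃* alternatingGroup (Fin n))) : n ≤ 10 + (if p = 11 then 1 else 0) :=
  Cfsg.Agent.S2657.result p n f.range ⊥ (quot_bot hf h)

theorem alt_le_te6 {a : ℕ} (ha : 1 ≤ a) (hF : Fintype.card F = (p ^ a) ^ 2)
    {f : T →* ↥(Lie.twistedE6 F (p ^ a))} (hf : Function.Injective f)
    (h : Nonempty (T ≃* alternatingGroup (Fin n))) : n ≤ 11 + (if p = 2 ∨ p = 3 ∨ p = 5 then 1 else 0) :=
  Cfsg.Agent.S2659.result p a ha hF n f.range ⊥ (quot_bot hf h)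

end models

end Cfsg.Agent.H889.Enum
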